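/-
Finite non-abelian groups with all subgroups normal.
-/
import Mathlib
import Cfsg.Agent.Lib.TwoGroups.Basic

set_option autoImplicit false

open scoped commutatorElement

namespace CfsgLib.Dedekind

variable {G : Type*} [Group G]

/-- Multiplying out a power of a product when the commutator is central in the generated group. -/
theorem mul_pow_of_comm_eq {u y e : G} (he : y * u = u * y * e) (heu : Commute e u) (hey : Commute e y)
    (k : ℕ) : (u * y) ^ k = u ^ k * y ^ k * e ^ k.choose 2 := by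
  have hy : ∀ j : ℕ, y ^ j * u = u * y ^ j * e ^ j := by
    intro j
    induction j with
    | zero => simp
    | succ j ih =>
      calc y ^ (j + 1) * u = y ^ j * (y * u) := by rw [pow_succ, mul_assoc]
        _ = (y ^ j * u) * (y * e) := by rw [he]; group
        _ = u * y ^ j * (e ^ j * y) * e := by rw [ih]; group
        _ = u * y ^ j * (y * e ^ j) * e := by rw [(hey.pow_left j).eq]
        _ = u * y ^ (j + 1) * e ^ (j + 1) := by rw [pow_succ, pow_succ]; group
  induction k with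
  | zero => simp
  | succ k ih =>
    calc (u * y) ^ (k + 1) = u ^ k * y ^ k * (e ^ k.choose 2 * (u * y)) := by rw [pow_succ, ih]; group
      _ = u ^ k * y ^ k * (u * y * e ^ k.choose 2) := by
        rw [((heu.mul_right hey).pow_left _).eq]
      _ = u ^ k * (y ^ k * u) * y * e ^ k.choose 2 := by group
      _ = u ^ k * (u * y ^ k) * (e ^ k * y) * e ^ k.choose 2 := by rw [hy k]; group
      _ = u ^ k * (u * y ^ k) * (y * e ^ k) * e ^ k.choose 2 := by rw [(hey.pow_left k).eq]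
      _ = u ^ (k + 1) * y ^ (k + 1) * e ^ (k + 1).choose 2 := by
        rw [Nat.choose_succ_succ, Nat.choose_one_right, pow_add e, pow_succ, pow_succ]; group

theorem commutator_mem_left (hn : ∀ H : Subgroup G, H.Normal) (x y : G) :
    ⁅x, y⁆ ∈ Subgroup.zpowers x := by
  rw [commutatorElement_def, mul_assoc x y, mul_assoc x]
  exact mul_mem (Subgroup.mem_zpowers x) ((hn _).conj_mem _ (inv_mem (Subgroup.mem_zpowers x)) y)

theorem commutator_mem_right (hn : ∀ H : Subgroup G, H.Normal) (x y : G) :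
    ⁅x, y⁆ ∈ Subgroup.zpowers y := by
  rw [commutatorElement_def]
  exact mul_mem ((hn _).conj_mem _ (Subgroup.mem_zpowers y) x) (inv_mem (Subgroup.mem_zpowers y))

theorem commute_of_mem_zpowers {g x : G} (h : g ∈ Subgroup.zpowers x) : Commute g x := by
  obtain ⟨i, rfl⟩ := Subgroup.mem_zpowers_iff.1 h
  exact (Commute.refl x).zpow_left i

/-- A finite non-abelian group with all subgroups normal contains a quaternion pair. -/
theorem exists_quaternion_pair [Finite G] (hn : ∀ H : Subgroup G, H.Normal)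
    (hna : ∃ x y : G, ¬ Commute x y) :
    ∃ x y : G, orderOf x = 4 ∧ orderOf y = 4 ∧ x ^ 2 = y ^ 2 ∧ y * x * y⁻¹ = x⁻¹ ∧ x * y * x⁻¹ = y⁻¹ := by
  classical
  have hex : ∃ N, ∃ x y : G, ¬ Commute x y ∧ orderOf x + orderOf y = N := by
    obtain ⟨x, y, h⟩ := hna
    exact ⟨_, x, y, h, rfl⟩
  obtain ⟨x₀, y₀, h₀, hN⟩ := Nat.find_spec hex
  have hmin₀ : ∀ a b : G, ¬ Commute a b → orderOf x₀ + orderOf y₀ ≤ orderOf a + orderOf b :=
    fun a b h => hN ▸ Nat.find_min' hex ⟨a, b, h, rfl⟩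
  -- choose `x` with the larger order
  obtain ⟨x, y, hxy, hle, hmin⟩ : ∃ x y : G, ¬ Commute x y ∧ orderOf y ≤ orderOf x ∧
      ∀ a b : G, ¬ Commute a b → orderOf x + orderOf y ≤ orderOf a + orderOf b := by
    rcases le_total (orderOf y₀) (orderOf x₀) with h | h
    · exact ⟨x₀, y₀, h₀, h, hmin₀⟩
    · exact ⟨y₀, x₀, fun h' => h₀ h'.symm, h, fun a b hab => by have := hmin₀ a b hab; omega⟩
  set c := ⁅x, y⁆ with hc
  have hcX : c ∈ Subgroup.zpowers x := commutator_mem_left hn x y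
  have hcY : c ∈ Subgroup.zpowers y := commutator_mem_right hn x y
  have hcx : Commute c x := commute_of_mem_zpowers hcX
  have hcy : Commute c y := commute_of_mem_zpowers hcY
  have hc1 : c ≠ 1 := fun h => hxy (commutatorElement_eq_one_iff_commute.1 h)
  have hxyc : x * y = c * (y * x) := by rw [hc, commutatorElement_def]; group
  have hpx : ∀ k : ℕ, x ^ k * y = c ^ k * (y * x ^ k) := by
    intro k
    induction k with
    | zero => simp
    | succ k ih =>
      calc x ^ (k + 1) * y = x ^ k * c * (y * x) := by rw [pow_succ, mul_assoc, hxyc]; group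
        _ = c * (x ^ k * y) * x := by rw [← (hcx.pow_right k).eq]; group
        _ = c ^ (k + 1) * (y * x ^ (k + 1)) := by rw [ih, pow_succ x, pow_succ' c]; group
  have hpy : ∀ k : ℕ, x * y ^ k = c ^ k * (y ^ k * x) := by
    intro k
    induction k with
    | zero => simp
    | succ k ih =>
      calc x * y ^ (k + 1) = c ^ k * y ^ k * (x * y) := by rw [pow_succ, ← mul_assoc x, ih]; group
        _ = c ^ k * (y ^ k * c) * (y * x) := by rw [hxyc]; group
        _ = c ^ k * (c * y ^ k) * (y * x) := by rw [(hcy.pow_right k).eq]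
        _ = c ^ (k + 1) * (y ^ (k + 1) * x) := by rw [pow_succ c, pow_succ y]; group
  have hlt : ∀ (g : G) (q : ℕ), q.Prime → q ∣ orderOf g → orderOf (g ^ q) < orderOf g := by
    intro g q hq hd
    rw [orderOf_pow_of_dvd hq.ne_zero hd]
    exact Nat.div_lt_self (orderOf_pos g) hq.one_lt
  have hcqx : ∀ q : ℕ, q.Prime → q ∣ orderOf x → c ^ q = 1 := by
    intro q hq hd
    have hcom : Commute (x ^ q) y := by
      by_contra h
      have := hmin _ _ h
      have := hlt x q hq hd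
      omega
    have := hpx q
    rw [hcom.eq] at this
    exact mul_eq_right.1 this.symm
  have hcqy : ∀ q : ℕ, q.Prime → q ∣ orderOf y → c ^ q = 1 := by
    intro q hq hd
    have hcom : Commute x (y ^ q) := by
      by_contra h
      have := hmin _ _ h
      have := hlt y q hq hd
      omega
    have := hpy q
    rw [hcom.eq] at this
    exact mul_eq_right.1 this.symm
  set p := orderOf c with hp
  have hoc : p ≠ 1 := fun h => hc1 (orderOf_eq_one_iff.1 h)
  have hprime : ∀ q : ℕ, q.Prime → c ^ q = 1 → q = p := fun q hq h => by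
    rcases (Nat.dvd_prime hq).1 (orderOf_dvd_of_pow_eq_one h) with h' | h'
    · exact absurd h' hoc
    · exact h'.symm
  have hox : orderOf x ≠ 1 := fun h => hxy (by rw [orderOf_eq_one_iff.1 h]; exact Commute.one_left y)
  have hpp : p.Prime := by
    obtain ⟨q, hq, hd⟩ := Nat.exists_prime_and_dvd hox
    exact hprime q hq (hcqx q hq hd) ▸ hq
  haveI : Fact p.Prime := ⟨hpp⟩
  obtain ⟨m, hm⟩ : ∃ m, orderOf x = p ^ m :=
    ⟨_, Nat.eq_prime_pow_of_unique_prime_dvd (orderOf_pos x).ne' fun {d} hd hdd =>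
      hprime d hd (hcqx d hd hdd)⟩
  obtain ⟨n, hn'⟩ : ∃ n, orderOf y = p ^ n :=
    ⟨_, Nat.eq_prime_pow_of_unique_prime_dvd (orderOf_pos y).ne' fun {d} hd hdd =>
      hprime d hd (hcqy d hd hdd)⟩
  have hnm : n ≤ m := (Nat.pow_le_pow_iff_right hpp.one_lt).1 (by rw [← hm, ← hn']; exact hle)
  have h2n : 2 ≤ n := by
    by_contra h
    have hle' : Subgroup.zpowers y ≤ Subgroup.zpowers c := by
      refine le_of_eq (Subgroup.eq_of_le_of_card_ge (Subgroup.zpowers_le.2 hcY) ?_).symm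
      rw [Nat.card_zpowers, Nat.card_zpowers, hn', ← hp]
      calc p ^ n ≤ p ^ 1 := Nat.pow_le_pow_right hpp.pos (by omega)
        _ = p := pow_one p
    obtain ⟨i, hi⟩ := Subgroup.mem_zpowers_iff.1 (hle' (Subgroup.mem_zpowers y))
    exact hxy (hi ▸ (hcx.zpow_left i).symm)
  -- a power of `y` of order `p` lies in `⟨x⟩`
  set z := y ^ p ^ (n - 1) with hz
  have hzp : z ^ p = 1 := by
    rw [hz, ← pow_mul, ← pow_succ, show n - 1 + 1 = n by omega, ← hn', pow_orderOf_eq_one]
  have hzX : z ∈ Subgroup.zpowers x := by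
    obtain ⟨j, hj⟩ := Subgroup.mem_zpowers_iff.1 hcY
    have hd : (p ^ (n - 1) : ℤ) ∣ j := by
      have h1 : y ^ (j * p) = 1 := by rw [zpow_mul, hj, zpow_natCast, hp, pow_orderOf_eq_one]
      have h2 : ((orderOf y : ℕ) : ℤ) ∣ j * p := orderOf_dvd_iff_zpow_eq_one.2 h1
      rw [hn', show n = n - 1 + 1 by omega, pow_succ, Nat.cast_mul, Nat.cast_pow] at h2
      exact (mul_dvd_mul_iff_right (by exact_mod_cast hpp.ne_zero)).1 h2
    have hcz : c ∈ Subgroup.zpowers z := by
      obtain ⟨t, rfl⟩ := hd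
      refine ⟨t, ?_⟩
      show z ^ t = c
      rw [← hj, zpow_mul, hz, ← zpow_natCast y, Nat.cast_pow]
    have heq : Subgroup.zpowers c = Subgroup.zpowers z := by
      refine Subgroup.eq_of_le_of_card_ge (Subgroup.zpowers_le.2 hcz) ?_
      rw [Nat.card_zpowers, Nat.card_zpowers, ← hp]
      exact Nat.le_of_dvd hpp.pos (orderOf_dvd_of_pow_eq_one hzp)
    exact (Subgroup.zpowers_le.2 hcX) (heq ▸ Subgroup.mem_zpowers z)
  obtain ⟨i, hi⟩ := Subgroup.mem_zpowers_iff.1 hzX
  obtain ⟨t, rfl⟩ : (p ^ (m - 1) : ℤ) ∣ i := by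
    have h1 : x ^ (i * p) = 1 := by rw [zpow_mul, hi, zpow_natCast, hzp]
    have h2 : ((orderOf x : ℕ) : ℤ) ∣ i * p := orderOf_dvd_iff_zpow_eq_one.2 h1
    rw [hm, show m = m - 1 + 1 by omega, pow_succ, Nat.cast_mul, Nat.cast_pow] at h2
    exact (mul_dvd_mul_iff_right (by exact_mod_cast hpp.ne_zero)).1 h2
  set a : ℕ := p ^ (m - n) with ha
  set u := (x ^ a) ^ (-t) with hu
  have hup : u ^ p ^ (n - 1) * y ^ p ^ (n - 1) = 1 := by
    rw [← hz, ← hi, hu, ← zpow_natCast x a, ← zpow_mul, ← zpow_natCast, ← zpow_mul, ← zpow_add,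
      show ((a : ℕ) : ℤ) * -t * ((p ^ (n - 1) : ℕ) : ℤ) + (p : ℤ) ^ (m - 1) * t = 0 by
        rw [ha, show m - 1 = (m - n) + (n - 1) by omega, pow_add]; push_cast; ring, zpow_zero]
  set e := (c ^ a) ^ t with he
  have hxu : Commute x u := ((Commute.refl x).pow_right a).zpow_right (-t)
  have heu : Commute e u := ((hcx.pow_left a).pow_right a).zpow_left t |>.zpow_right (-t)
  have hey : Commute e y := (hcy.pow_left a).zpow_left t
  have hye : y * u = u * y * e := by
    have h1 : y⁻¹ * x ^ a * y = c ^ a * x ^ a := by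
      calc y⁻¹ * x ^ a * y = y⁻¹ * (c ^ a * y) * x ^ a := by rw [mul_assoc, hpx a]; group
        _ = c ^ a * x ^ a := by rw [(hcy.pow_left a).eq]; group
    have h2 : y⁻¹ * u * y = u * e⁻¹ := by
      have : y⁻¹ * u * y⁻¹⁻¹ = (y⁻¹ * x ^ a * y⁻¹⁻¹) ^ (-t) := (conj_zpow).symm
      rw [inv_inv] at this
      rw [this, h1, ((hcx.pow_left a).pow_right a).mul_zpow, ← hu, zpow_neg (c ^ a), ← he]
      exact (heu.inv_left).eq
    have h3 : u * y = y * (u * e⁻¹) := by rw [← h2]; group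
    calc y * u = y * (u * e⁻¹) * e := by group
      _ = u * y * e := by rw [← h3]
  have hnc : ¬ Commute x (u * y) := fun h => by
    have := hxu.inv_right.mul_right h
    rw [inv_mul_cancel_left] at this
    exact hxy this
  have hkey : e ^ (p ^ (n - 1)).choose 2 ≠ 1 := by
    intro hek
    have h1 : (u * y) ^ p ^ (n - 1) = 1 := by rw [mul_pow_of_comm_eq hye heu hey, hek, hup, one_mul]
    have h2 := hmin _ _ hnc
    have h3 : orderOf (u * y) ≤ p ^ (n - 1) :=
      Nat.le_of_dvd (pow_pos hpp.pos _) (orderOf_dvd_of_pow_eq_one h1)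
    have h4 : p ^ (n - 1) < p ^ n := Nat.pow_lt_pow_right hpp.one_lt (by omega)
    omega
  have hep : e ^ p = 1 := by
    rw [he, ← zpow_natCast _ p, ← zpow_mul, mul_comm, zpow_mul, zpow_natCast, ← pow_mul, mul_comm a,
      pow_mul, hp, pow_orderOf_eq_one, one_pow, one_zpow]
  have hchoose : ¬ p ∣ (p ^ (n - 1)).choose 2 := by
    rintro ⟨w, hw⟩
    exact hkey (by rw [hw, pow_mul, hep, one_pow])
  have hp2 : p = 2 ∧ n = 2 := by
    by_contra h
    apply hchoose
    by_cases hp2 : p = 2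
    · rw [hp2]
      obtain ⟨k, hk⟩ : ∃ k, n - 1 = k + 2 := ⟨n - 3, by omega⟩
      rw [hk, Nat.choose_two_right, pow_add, show (2 ^ k * 2 ^ 2 * (2 ^ k * 2 ^ 2 - 1)) =
        2 * (2 * (2 ^ k * (2 ^ k * 2 ^ 2 - 1))) by ring, Nat.mul_div_cancel_left _ two_pos]
      exact dvd_mul_right 2 _
    · exact Nat.Prime.dvd_choose_pow hpp (by norm_num) (fun h2 => by
        have h3 : p ^ 1 ≤ p ^ (n - 1) := Nat.pow_le_pow_right hpp.pos (by omega)
        have := hpp.two_le
        rw [pow_one] at h3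
        omega)
  obtain ⟨hp2, hn2⟩ := hp2
  have hm2 : m = 2 := by
    by_contra h
    apply hkey
    obtain ⟨k, hk⟩ : ∃ k, m - n = k + 1 := ⟨m - n - 1, by omega⟩
    rw [he, ha, hk, pow_succ' p, pow_mul c, hp, pow_orderOf_eq_one, one_pow, one_zpow, one_pow]
  have hx4 : orderOf x = 4 := by rw [hm, hp2, hm2]; norm_num
  have hy4 : orderOf y = 4 := by rw [hn', hp2, hn2]; norm_num
  have hsq : ∀ g : G, orderOf g = 4 → c ∈ Subgroup.zpowers g → g ^ 2 = c := by
    intro g hg hcg
    obtain ⟨k, hk⟩ := Subgroup.mem_zpowers_iff.1 hcg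
    have h1 : (4 : ℤ) ∣ k * 2 := by
      have : g ^ (k * 2) = 1 := by
        rw [zpow_mul, hk, show (2 : ℤ) = ((p : ℕ) : ℤ) by rw [hp2]; rfl, zpow_natCast, hp, pow_orderOf_eq_one]
      have := orderOf_dvd_iff_zpow_eq_one.2 this
      rwa [hg] at this
    obtain ⟨l, rfl⟩ : (2 : ℤ) ∣ k := by omega
    rcases Int.even_or_odd' l with ⟨j, rfl | rfl⟩
    · exfalso
      apply hc1
      rw [← hk, show (2 : ℤ) * (2 * j) = ((orderOf g : ℕ) : ℤ) * j by rw [hg]; push_cast; ring,
        zpow_mul, zpow_natCast, pow_orderOf_eq_one, one_zpow]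
    · rw [← hk, show (2 : ℤ) * (2 * j + 1) = ((orderOf g : ℕ) : ℤ) * j + ((2 : ℕ) : ℤ) by
        rw [hg]; push_cast; ring, zpow_add, zpow_mul, zpow_natCast, zpow_natCast, pow_orderOf_eq_one,
        one_zpow, one_mul]
  have hcx2 := hsq x hx4 hcX
  have hcy2 := hsq y hy4 hcY
  have hinv : ∀ g : G, orderOf g = 4 → g ^ 3 = g⁻¹ := fun g hg => by
    refine eq_inv_of_mul_eq_one_left ?_
    rw [← pow_succ, show 3 + 1 = orderOf g from hg.symm, pow_orderOf_eq_one]
  refine ⟨x, y, hx4, hy4, hcx2.trans hcy2.symm, ?_, ?_⟩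
  · have h1 : x * y * x⁻¹ * y⁻¹ = x ^ 2 := by rw [hcx2, hc, commutatorElement_def]
    have h2 : y * x⁻¹ * y⁻¹ = x := by
      calc y * x⁻¹ * y⁻¹ = x⁻¹ * (x * y * x⁻¹ * y⁻¹) := by group
        _ = x := by rw [h1, pow_two, inv_mul_cancel_left]
    rw [← inv_inj, inv_inv]
    refine Eq.trans ?_ h2
    group
  · have h1 : x * y * x⁻¹ * y⁻¹ = y ^ 2 := by rw [hcy2, hc, commutatorElement_def]
    calc x * y * x⁻¹ = x * y * x⁻¹ * y⁻¹ * y := by group
      _ = y⁻¹ := by rw [h1, ← pow_succ, hinv y hy4]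

theorem mem_of_mem_zpowers {u w : G} {N : ℕ} (hN : 0 < N) (hw : w ^ N = 1)
    (hu : u ∈ Subgroup.zpowers w) : ∃ k < N, u = w ^ k := by
  obtain ⟨i, rfl⟩ := Subgroup.mem_zpowers_iff.1 hu
  obtain ⟨k, hk⟩ := Int.eq_ofNat_of_zero_le (Int.emod_nonneg i (by omega : (N : ℤ) ≠ 0))
  refine ⟨k, ?_, ?_⟩
  · have := Int.emod_lt_of_pos i (show (0 : ℤ) < N by omega)
    omega
  · conv_lhs => rw [← Int.mul_ediv_add_emod i N, zpow_add, zpow_mul, zpow_natCast, hw, one_zpow, one_mul,
      hk, zpow_natCast]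

/-- The structure of finite non-abelian groups with all subgroups normal. -/
theorem hamiltonian [Finite G] (hn : ∀ H : Subgroup G, H.Normal) (hna : ∃ x y : G, ¬ Commute x y) :
    ∃ Q E A : Subgroup G, Nonempty (Q ≃* QuaternionGroup 2) ∧ (IsMulCommutative E ∧ ∀ e ∈ E, e ^ 2 = 1) ∧
      IsMulCommutative A ∧ Odd (Nat.card A) ∧ E ⊓ A = ⊥ ∧ Q ⊓ (E ⊔ A) = ⊥ ∧ Q ⊔ (E ⊔ A) = ⊤ := by
  classical
  obtain ⟨x, y, hx, hy, hxy2, hyx, hxy⟩ := exists_quaternion_pair hn hna
  have hx4 : x ^ 4 = 1 := hx ▸ pow_orderOf_eq_one x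
  have hy4 : y ^ 4 = 1 := hy ▸ pow_orderOf_eq_one y
  have hx2 : x ^ 2 ≠ 1 := pow_ne_one_of_lt_orderOf two_ne_zero (by omega)
  have hy2 : y ^ 2 ≠ 1 := hxy2 ▸ hx2
  have hnc : ¬ Commute x y := fun h => by
    have h1 : y * x * y⁻¹ = x := by rw [← h.eq, mul_inv_cancel_right]
    rw [hyx, inv_eq_iff_mul_eq_one] at h1
    exact hx2 (by rw [pow_two]; exact h1)
  have hyX : y ∉ Subgroup.zpowers x := fun h => hnc (commute_of_mem_zpowers h).symm
  set X := Subgroup.zpowers x with hX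
  set Y := Subgroup.zpowers y with hY
  set Q := X ⊔ Y with hQ
  set C := Subgroup.centralizer ({x, y} : Set G) with hC
  have hCx : ∀ c ∈ C, Commute c x := fun c hc => (Subgroup.mem_centralizer_iff.1 hc x (by simp)).symm
  have hCy : ∀ c ∈ C, Commute c y := fun c hc => (Subgroup.mem_centralizer_iff.1 hc y (by simp)).symm
  have hQ8 : Nat.card Q = 8 := by
    haveI := hn X
    have h1 : Nat.card (X ⊓ Y : Subgroup G) = 2 := by
      have hd : Nat.card (X ⊓ Y : Subgroup G) ∣ 2 ^ 2 := by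
        have := Subgroup.card_dvd_of_le (inf_le_right : X ⊓ Y ≤ Y)
        rw [hY, Nat.card_zpowers, hy] at this
        exact this
      have hmem : x ^ 2 ∈ X ⊓ Y := ⟨pow_mem (Subgroup.mem_zpowers x) 2,
        by rw [hxy2]; exact pow_mem (Subgroup.mem_zpowers y) 2⟩
      obtain ⟨k, hk, hk'⟩ := (Nat.dvd_prime_pow Nat.prime_two).1 hd
      interval_cases k
      · exfalso
        rw [pow_zero] at hk'
        exact hx2 (Subgroup.mem_bot.1 (Subgroup.eq_bot_of_card_eq _ hk' ▸ hmem))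
      · exact hk'
      · exfalso
        have h2 : X ⊓ Y = Y := Subgroup.eq_of_le_of_card_ge inf_le_right
          (by rw [hk', hY, Nat.card_zpowers, hy]; norm_num)
        exact hyX ((inf_eq_right.1 h2) (Subgroup.mem_zpowers y))
    have h2 : Nat.card (X ⊓ Y : Subgroup G) * X.relIndex Y = 4 := by
      rw [← Subgroup.inf_relIndex_right X Y, ← Subgroup.relIndex_bot_left,
        Subgroup.relIndex_mul_relIndex _ _ _ bot_le inf_le_right, Subgroup.relIndex_bot_left, hY,
        Nat.card_zpowers, hy]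
    rw [← Subgroup.relIndex_bot_left, ← Subgroup.relIndex_mul_relIndex ⊥ X Q bot_le le_sup_left,
      Subgroup.relIndex_bot_left, hQ, sup_comm X Y, Subgroup.relIndex_sup_right, hX, Nat.card_zpowers, hx]
    rw [h1] at h2
    rw [← hX]
    omega
  -- no elements of order four in the centralizer
  have hC4 : ∀ c ∈ C, orderOf c ≠ 4 := by
    intro c hc h4
    have hc4 : c ^ 4 = 1 := h4 ▸ pow_orderOf_eq_one c
    have hc2 : c ^ 2 ≠ 1 := pow_ne_one_of_lt_orderOf two_ne_zero (by omega)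
    have hyc : Commute y c := (hCy c hc).symm
    have hmem := (hn (Subgroup.zpowers (y * c))).conj_mem _ (Subgroup.mem_zpowers _) x
    have he : x * (y * c) * x⁻¹ = y⁻¹ * c := by
      calc x * (y * c) * x⁻¹ = x * y * x⁻¹ * (x * c * x⁻¹) := by group
        _ = y⁻¹ * c := by rw [hxy, ← (hCx c hc).eq, mul_inv_cancel_right]
    rw [he] at hmem
    obtain ⟨k, hk, hke⟩ := mem_of_mem_zpowers (N := 4) (by norm_num)
      (by rw [hyc.mul_pow, hy4, hc4, one_mul]) hmem
    rw [hyc.mul_pow] at hke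
    have hyc' : y ≠ c := fun h => hnc (h ▸ (hCx c hc).symm)
    interval_cases k
    · rw [pow_zero, pow_zero, one_mul, inv_mul_eq_one] at hke
      exact hyc' hke
    · rw [pow_one, pow_one, mul_left_inj, inv_eq_iff_mul_eq_one] at hke
      exact hy2 (by rw [pow_two]; exact hke)
    · apply hyc'
      have h1 : y ^ 3 * c = 1 := by
        have := congrArg (fun g => y * g * c⁻¹) hke.symm
        simp only [mul_inv_cancel_left, mul_inv_cancel] at this
        rw [← this]; group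
      have h3 : c = (y ^ 3)⁻¹ := eq_inv_of_mul_eq_one_right h1
      rw [h3, inv_eq_of_mul_eq_one_right (show y ^ 3 * y = 1 by rw [← pow_succ]; exact hy4)]
    · apply hc2
      have hyi : y ^ 3 = y⁻¹ := eq_inv_of_mul_eq_one_left (by rw [← pow_succ]; exact hy4)
      rw [hyi, mul_right_inj, pow_succ] at hke
      exact (mul_eq_right.1 hke.symm)
  have hn4 : ∀ c ∈ C, ¬ 4 ∣ orderOf c := by
    intro c hc hd
    refine hC4 _ (pow_mem hc (orderOf c / 4)) ?_
    exact orderOf_pow_orderOf_div (orderOf_pos c).ne' hd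
  -- the centralizer is commutative
  have hCab : ∀ a ∈ C, ∀ b ∈ C, Commute a b := by
    intro a ha b hb
    by_contra h
    obtain ⟨u, -, hu, -⟩ := exists_quaternion_pair (G := C)
      (fun H => by
        haveI := hn (H.map C.subtype)
        rw [← Subgroup.comap_map_eq_self_of_injective C.subtype_injective H]
        infer_instance)
      ⟨⟨a, ha⟩, ⟨b, hb⟩, fun h' => h (h'.map C.subtype)⟩
    exact hC4 u u.2 (by rw [Subgroup.orderOf_coe, hu])
  -- G = Q C
  have hQC : Q ⊔ C = ⊤ := by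
    refine eq_top_iff.2 fun g _ => ?_
    have hconj : ∀ z : G, orderOf z = 4 → g * z * g⁻¹ = z ∨ g * z * g⁻¹ = z⁻¹ := by
      intro z hz
      have hz4 : z ^ 4 = 1 := hz ▸ pow_orderOf_eq_one z
      obtain ⟨k, hk, hke⟩ := mem_of_mem_zpowers (N := 4) (by norm_num) hz4
        ((hn _).conj_mem _ (Subgroup.mem_zpowers z) g)
      interval_cases k
      · exfalso
        rw [pow_zero, conj_eq_one_iff] at hke
        rw [hke, orderOf_one] at hz
        norm_num at hz
      · exact Or.inl (hke.trans (pow_one z))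
      · exfalso
        have h := congrArg (fun t => t ^ 2) hke
        simp only [conj_pow, ← pow_mul, hz4, conj_eq_one_iff] at h
        exact pow_ne_one_of_lt_orderOf two_ne_zero (by omega) h
      · exact Or.inr (hke.trans (eq_inv_of_mul_eq_one_left (by rw [← pow_succ]; exact hz4)))
    have hmem : ∀ q ∈ Q, q * g ∈ C → g ∈ Q ⊔ C := fun q hq hqg => by
      rw [show g = q⁻¹ * (q * g) by group]
      exact Subgroup.mul_mem_sup (inv_mem hq) hqg
    have hxQ : x ∈ Q := Subgroup.mem_sup_left (Subgroup.mem_zpowers x)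
    have hyQ : y ∈ Q := Subgroup.mem_sup_right (Subgroup.mem_zpowers y)
    have hmk : ∀ q z : G, q * (g * z * g⁻¹) * q⁻¹ = z → z * (q * g) = q * g * z := fun q z h => by
      conv_lhs => rw [← h]
      group
    have hxx : x * x * x⁻¹ = x := mul_inv_cancel_right x x
    have hyy : y * y * y⁻¹ = y := mul_inv_cancel_right y y
    have hin : ∀ q, q * (g * x * g⁻¹) * q⁻¹ = x → q * (g * y * g⁻¹) * q⁻¹ = y → q * g ∈ C :=
      fun q h1 h2 => Subgroup.mem_centralizer_iff.2 fun z hz => by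
        rcases hz with rfl | rfl
        · exact hmk _ _ h1
        · exact hmk _ _ h2
    have hyxi : y * x⁻¹ * y⁻¹ = x := by rw [← conj_inv, hyx, inv_inv]
    have hxyi : x * y⁻¹ * x⁻¹ = y := by rw [← conj_inv, hxy, inv_inv]
    rcases hconj x hx with h1 | h1 <;> rcases hconj y hy with h2 | h2
    · exact hmem 1 (one_mem Q) (hin 1 (by simp [h1]) (by simp [h2]))
    · exact hmem x hxQ (hin x (by rw [h1, hxx]) (by rw [h2, hxyi]))
    · exact hmem y hyQ (hin y (by rw [h1, hyxi]) (by rw [h2, hyy]))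
    · refine hmem (x * y) (mul_mem hxQ hyQ) (hin _ ?_ ?_)
      · rw [h1, show x * y * x⁻¹ * (x * y)⁻¹ = x * (y * x⁻¹ * y⁻¹) * x⁻¹ by group, hyxi, hxx]
      · rw [h2, show x * y * y⁻¹ * (x * y)⁻¹ = x * y⁻¹ * x⁻¹ by group, hxyi]
  set z := x ^ 2 with hz
  have hz2 : z ^ 2 = 1 := by rw [hz, ← pow_mul]; exact hx4
  have hzC : z ∈ C := Subgroup.mem_centralizer_iff.2 fun w hw => by
    rcases hw with rfl | rfl
    · exact ((Commute.refl w).pow_right 2).eq
    · rw [hxy2]; exact ((Commute.refl w).pow_right 2).eq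
  -- E₀, A
  let E₀ : Subgroup G :=
    { carrier := {c | c ∈ C ∧ c ^ 2 = 1}
      one_mem' := ⟨one_mem C, one_pow 2⟩
      mul_mem' := fun {a b} ha hb => ⟨mul_mem ha.1 hb.1, by
        rw [(hCab a ha.1 b hb.1).mul_pow, ha.2, hb.2, mul_one]⟩
      inv_mem' := fun {a} ha => ⟨inv_mem ha.1, by rw [inv_pow, ha.2, inv_one]⟩ }
  let A : Subgroup G :=
    { carrier := {c | c ∈ C ∧ Odd (orderOf c)}
      one_mem' := ⟨one_mem C, by rw [orderOf_one]; exact odd_one⟩
      mul_mem' := fun {a b} ha hb => ⟨mul_mem ha.1 hb.1,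
        Odd.of_dvd_nat (ha.2.mul hb.2) (hCab a ha.1 b hb.1).orderOf_mul_dvd_mul_orderOf⟩
      inv_mem' := fun {a} ha => ⟨inv_mem ha.1, by rw [orderOf_inv]; exact ha.2⟩ }
  have hAodd : Odd (Nat.card A) := by
    rw [← Nat.not_even_iff_odd, even_iff_two_dvd]
    intro h
    obtain ⟨a, ha⟩ := exists_prime_orderOf_dvd_card' (p := 2) h
    have := a.2.2
    rw [Subgroup.orderOf_coe, ha] at this
    exact absurd this (by decide)
  -- a complement of z in E₀
  obtain ⟨E, ⟨hEle, hzE⟩, hEmax⟩ : ∃ E : Subgroup G, (E ≤ E₀ ∧ z ∉ E) ∧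
      ∀ E' : Subgroup G, E' ≤ E₀ → z ∉ E' → E ≤ E' → E' = E := by
    obtain ⟨E, hE⟩ := (Set.toFinite {E : Subgroup G | E ≤ E₀ ∧ z ∉ E}).exists_maximal
      ⟨⊥, bot_le, fun h => hx2 (Subgroup.mem_bot.1 h)⟩
    exact ⟨E, hE.1, fun E' h1 h2 h3 => le_antisymm (hE.2 ⟨h1, h2⟩ h3) h3⟩
  have hE₀ : ∀ e ∈ E₀, e ∈ E ⊔ Subgroup.zpowers z := by
    intro e he
    by_contra h
    have heE : e ∉ E := fun h' => h (Subgroup.mem_sup_left h')
    haveI := hn E
    by_cases hz' : z ∈ E ⊔ Subgroup.zpowers e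
    · obtain ⟨u, hu, v, hv, huv⟩ := Subgroup.mem_sup_of_normal_left.1 hz'
      obtain ⟨k, hk, rfl⟩ := mem_of_mem_zpowers two_pos he.2 hv
      interval_cases k
      · exact hzE (by rw [← huv, pow_zero, mul_one]; exact hu)
      · rw [pow_one] at huv
        apply h
        rw [show e = u⁻¹ * z by rw [← huv, inv_mul_cancel_left]]
        exact Subgroup.mul_mem_sup (inv_mem hu) (Subgroup.mem_zpowers z)
    · have := hEmax _ (sup_le hEle (Subgroup.zpowers_le.2 he)) hz' le_sup_left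
      exact heE (this ▸ Subgroup.mem_sup_right (Subgroup.mem_zpowers e))
  refine ⟨Q, E, A, ?_, ⟨⟨⟨fun a b => Subtype.ext (hCab _ (hEle a.2).1 _ (hEle b.2).1).eq⟩⟩,
    fun e he => (hEle he).2⟩, ⟨⟨fun a b => Subtype.ext (hCab _ a.2.1 _ b.2.1).eq⟩⟩, hAodd, ?_, ?_, ?_⟩
  · have hxQ : x ∈ Q := Subgroup.mem_sup_left (Subgroup.mem_zpowers x)
    have hyQ : y ∈ Q := Subgroup.mem_sup_right (Subgroup.mem_zpowers y)
    refine CfsgLib.TwoGroups.nonempty_mulEquiv_quaternion (k := 2) (x := (⟨x, hxQ⟩ : Q)) (y := ⟨y, hyQ⟩)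
      ?_ (by rw [hQ8]) ?_ (Subtype.ext hxy2.symm) (Subtype.ext hyx)
    · rw [← Subgroup.orderOf_coe]; exact hx
    · intro h
      obtain ⟨i, hi⟩ := Subgroup.mem_zpowers_iff.1 h
      exact hyX ⟨i, congrArg Subtype.val hi⟩
  · rw [eq_bot_iff]
    rintro e ⟨he, ha⟩
    have h1 : orderOf e ∣ 2 := orderOf_dvd_of_pow_eq_one (hEle he).2
    rcases (Nat.dvd_prime Nat.prime_two).1 h1 with h | h
    · exact Subgroup.mem_bot.2 (orderOf_eq_one_iff.1 h)
    · have := ha.2
      rw [h] at this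
      exact absurd this (by decide)
  · rw [eq_bot_iff]
    rintro u ⟨hu, hu'⟩
    haveI := hn E
    obtain ⟨e, he, a, ha, rfl⟩ := Subgroup.mem_sup_of_normal_left.1 hu'
    have h8 : (e * a) ^ 8 = 1 := by
      have : orderOf (e * a) ∣ 8 := hQ8 ▸ Subgroup.orderOf_dvd_natCard Q hu
      exact orderOf_dvd_iff_pow_eq_one.1 this
    have hea := hCab e (hEle he).1 a ha.1
    rw [hea.mul_pow, show (8 : ℕ) = 2 * 4 from rfl, pow_mul e, (hEle he).2, one_pow, one_mul] at h8
    have ha1 : a = 1 := by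
      rw [← orderOf_eq_one_iff]
      have h1 : orderOf a ∣ 2 ^ 3 := orderOf_dvd_of_pow_eq_one h8
      obtain ⟨k, -, hk⟩ := (Nat.dvd_prime_pow Nat.prime_two).1 h1
      rcases k with _ | k
      · exact hk.trans (pow_zero 2)
      · exfalso
        have := ha.2
        rw [hk, pow_succ', Nat.odd_iff] at this
        omega
    subst ha1
    rw [mul_one] at hu ⊢
    haveI := hn X
    obtain ⟨u1, hu1, v, hv, rfl⟩ := Subgroup.mem_sup_of_normal_left.1 hu
    obtain ⟨i, hi, rfl⟩ := mem_of_mem_zpowers (N := 4) (by norm_num) hy4 hv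
    have hxv : Commute x (y ^ i) := by
      have h1 : Commute x (u1 * y ^ i) := (hCx _ (hEle he).1).symm
      have h2 : Commute x u1⁻¹ := (commute_of_mem_zpowers hu1).symm.inv_right
      simpa using h2.mul_right h1
    have hieven : y ^ i ∈ X := by
      interval_cases i
      · rw [pow_zero]; exact one_mem X
      · exact absurd (by simpa using hxv) hnc
      · rw [← hxy2]; exact pow_mem (Subgroup.mem_zpowers x) 2
      · exfalso
        rw [show y ^ 3 = y⁻¹ from eq_inv_of_mul_eq_one_left (by rw [← pow_succ]; exact hy4)] at hxv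
        exact hnc (by simpa using hxv.inv_right)
    obtain ⟨j, hj, hje⟩ := mem_of_mem_zpowers (N := 4) (by norm_num) hx4 (mul_mem hu1 hieven)
    have hyj : Commute y (x ^ j) := hje ▸ (hCy _ (hEle he).1).symm
    rw [Subgroup.mem_bot, hje]
    interval_cases j
    · exact pow_zero x
    · exact absurd (by simpa using hyj.symm) hnc
    · rw [hje] at he; exact absurd he hzE
    · exfalso
      rw [show x ^ 3 = x⁻¹ from eq_inv_of_mul_eq_one_left (by rw [← pow_succ]; exact hx4)] at hyj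
      exact hnc (by simpa using hyj.inv_right.symm)
  · rw [← top_le_iff, ← hQC]
    refine sup_le le_sup_left fun c hc => ?_
    have hz' : Subgroup.zpowers z ≤ Q ⊔ (E ⊔ A) := Subgroup.zpowers_le.2
      (Subgroup.mem_sup_left (Subgroup.mem_sup_left (pow_mem (Subgroup.mem_zpowers x) 2)))
    have hE₀' : E₀ ≤ Q ⊔ (E ⊔ A) := fun e he =>
      (sup_le (le_sup_left.trans le_sup_right) hz') (hE₀ e he)
    have hA' : A ≤ Q ⊔ (E ⊔ A) := le_sup_right.trans le_sup_right
    rcases Nat.even_or_odd' (orderOf c) with ⟨m, hm | hm⟩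
    · have hmodd : Odd m := by
        rw [← Nat.not_even_iff_odd]
        rintro ⟨l, rfl⟩
        exact hn4 c hc ⟨l, by rw [hm]; ring⟩
      have hcm : c ^ m ∈ E₀ := ⟨pow_mem hc m, by rw [← pow_mul, mul_comm, ← hm, pow_orderOf_eq_one]⟩
      have hcm' : c ^ (m + 1) ∈ A := ⟨pow_mem hc _, by
        refine Odd.of_dvd_nat hmodd (orderOf_dvd_of_pow_eq_one ?_)
        obtain ⟨l, hl⟩ : 2 ∣ m + 1 := by obtain ⟨r, rfl⟩ := hmodd; exact ⟨r + 1, by ring⟩
        rw [← pow_mul, hl, show 2 * l * m = 2 * m * l by ring, ← hm, pow_mul, pow_orderOf_eq_one, one_pow]⟩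
      have : c = c ^ m * c ^ (m + 1) := by
        rw [← pow_add, show m + (m + 1) = 2 * m + 1 by ring, pow_succ, ← hm, pow_orderOf_eq_one, one_mul]
      rw [this]
      exact mul_mem (hE₀' hcm) (hA' hcm')
    · exact hA' ⟨hc, hm ▸ odd_two_mul_add_one m⟩

end CfsgLib.Dedekind
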